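import Cfsg.Agent.Lib.H16.CE.S1688.Z

set_option autoImplicit false
set_option maxRecDepth 1000000

namespace Cfsg.Agent.H16.CE.S1688
open Cfsg.Agent.H16.CosetEnum Cfsg.Agent.H16.CE.S1689
open Cfsg.Agent.H16.Enum (walk)

noncomputable section

theorem hz0 : rangeAll (allAt LZ) 0 4000 = true := by decide +kernel
theorem hz1 : rangeAll (allAt LZ) 4000 4000 = true := by decide +kernel
theorem hz2 : rangeAll (allAt LZ) 8000 4000 = true := by decide +kernel
theorem hz3 : rangeAll (allAt LZ) 12000 4000 = true := by decide +kernel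
theorem hz4 : rangeAll (allAt LZ) 16000 4000 = true := by decide +kernel
theorem hz5 : rangeAll (allAt LZ) 20000 4000 = true := by decide +kernel
theorem hz6 : rangeAll (allAt LZ) 24000 4000 = true := by decide +kernel
theorem hz7 : rangeAll (allAt LZ) 28000 3671 = true := by decide +kernel
theorem all_z : ∀ i < 31671, allAt LZ i = true := by
  have h0 := range_start (P := allAt LZ)
  have h1 : ∀ i < 4000, allAt LZ i = true := range_step h0 hz0 rfl
  have h2 : ∀ i < 8000, allAt LZ i = true := range_step h1 hz1 rfl
  have h3 : ∀ i < 12000, allAt LZ i = true := range_step h2 hz2 rfl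
  have h4 : ∀ i < 16000, allAt LZ i = true := range_step h3 hz3 rfl
  have h5 : ∀ i < 20000, allAt LZ i = true := range_step h4 hz4 rfl
  have h6 : ∀ i < 24000, allAt LZ i = true := range_step h5 hz5 rfl
  have h7 : ∀ i < 28000, allAt LZ i = true := range_step h6 hz6 rfl
  have h8 : ∀ i < 31671, allAt LZ i = true := range_step h7 hz7 rfl
  exact h8
theorem t7_0 : t7 0 = 1 := by decide +kernel
theorem pz_1 : pz 1 = 8006 := by decide +kernel
theorem pz_b : pz 8 = 1732 := by decide +kernel
theorem t0_b : t0 8 = 11 := by decide +kernel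

end

end Cfsg.Agent.H16.CE.S1688
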